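import Cfsg.Agent.H341.CC.CoInv
import Cfsg.Agent.H177.AACo1
import Cfsg.Agent.H525.RO.CoTf

/-!
# S3828, row of `Co1` (helper341)
-/

set_option autoImplicit false
set_option maxRecDepth 20000

namespace Cfsg.Agent.H341.CC.Co1Row

open Subgroup Cfsg Cfsg.Agent.H162.CCR Cfsg.Agent.Lib.Cores Cfsg.Agent.H459.Rad Cfsg.Agent.H865.CC Cfsg.Agent.H341.CC
open Cfsg.Agent.H341.CC.CoInv
open Cfsg.Agent.H813.RadCo1 (EN mem_EN E_le E_conj E_sq EN_ne)
open Cfsg.Agent.CTwoTab.Co1 (E)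
open Cfsg.Agent.H235.AA.Tools (not_comm_of_card)
open Cfsg.Agent.SporadicA.Co0Mono
open Cfsg.Agent.KFacts.Co1D4

instance fin : Finite Spor.Co1 := Cfsg.Agent.H813.RadCo1.finite_co1

theorem card_co1 : Nat.card Spor.Co1 = 4157776806543360000 := Cfsg.Agent.S0399.result.2

theorem simple : IsSimpleGroup Spor.Co1 := Cfsg.Agent.S0399.result.1

theorem not_comm : ¬ IsMulCommutative Spor.Co1 := by
  have := simple
  exact not_comm_of_card (by rw [card_co1]; norm_num)

theorem pcore (p : ℕ) [Fact p.Prime] : pCore p Spor.Co1 = ⊥ := by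
  have := simple
  exact pCore_eq_bot_of_simple not_comm p

/-- elements of `C` commute with no involution -/
theorem eq_one {p : ℕ} [hp : Fact p.Prime] (hp2 : p ≠ 2) {C : Set Spor.Co1} (h : Min p C) {c t : Spor.Co1} (hc : c ∈ C)
    (ht : orderOf t = 2) (hct : c * t = t * c) : c = 1 := by
  have := simple
  exact eq_one_of_inv hp.out hp2 (h.pel c hc) (rc_of_min h hc) ht hct

theorem prime_order {G : Type*} [Group G] {p : ℕ} {C : Set G} (h : Min p C) {c : G} (hc : c ∈ C)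
    (hc1 : c ≠ 1) {n : ℕ} (hn : Nat.card G = n) (h2 : ¬ p ^ 2 ∣ n) : orderOf c = p := by
  obtain ⟨k, hk⟩ := h.pel c hc
  have h1 : orderOf c ∣ n := hn ▸ orderOf_dvd_natCard c
  rw [hk] at h1
  rcases k with _ | _ | k
  · rw [pow_zero, orderOf_eq_one_iff] at hk
    exact absurd hk hc1
  · rw [hk]
    norm_num
  · exact absurd ((Nat.pow_dvd_pow p (by omega : 2 ≤ k + 2)).trans h1) h2

/-! ### the monomial subgroup -/

theorem index_EN : EN.index ∣ 8292375 := by
  have h1 := Subgroup.index_map_dvd (H := Cfsg.Agent.SporadicA.Co1Simple.N) (f := QuotientGroup.mk' (center Co0))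
    (QuotientGroup.mk'_surjective _)
  have h2 := (Cfsg.Agent.SporadicA.Co1Simple.N).card_mul_index
  rw [Cfsg.Agent.S0399.card_N, Cfsg.Agent.S0397.result] at h2
  have h3 : (Cfsg.Agent.SporadicA.Co1Simple.N).index = 8292375 := by omega
  rw [h3] at h1
  exact h1

/-- the order of an image -/
theorem card_map_dvd' {G H : Type*} [Group G] [Group H] (f : G →* H) (K : Subgroup G) :
    Nat.card ↥(K.map f) ∣ Nat.card K := by
  have h := Subgroup.card_dvd_of_surjective (f.subgroupMap K) (f.subgroupMap_surjective K)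
  exact h

theorem EN_ne_top : EN ≠ ⊤ := by
  intro h
  have h1 := card_map_dvd' (QuotientGroup.mk' (center Co0)) Cfsg.Agent.SporadicA.Co1Simple.N
  have h2 : (Cfsg.Agent.SporadicA.Co1Simple.N).map (QuotientGroup.mk' (center Co0)) = ⊤ := h
  rw [h2, Subgroup.card_top, Cfsg.Agent.S0399.card_N] at h1
  have h3 : Nat.card Spor.Co1 ∣ 4096 * 244823040 := h1
  rw [card_co1] at h3
  exact absurd (Nat.le_of_dvd (by norm_num) h3) (by norm_num)

theorem pCore_EN {p : ℕ} [hp : Fact p.Prime] {x : EN} (hx : x ∈ pCore p EN) : (x : Spor.Co1) ∈ E := by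
  have h1 : Group.IsNilpotent (pCore p EN) := (pCore_isPGroup p).isNilpotent
  have h2 : Group.IsSolvable (pCore p EN) := inferInstance
  exact radIn_EN (mem_radIn_coe.2 (le_rad inferInstance h2 hx))

theorem row_two : CRow 2 Spor.Co1 := by
  have hF : Fact (Nat.Prime 2) := ⟨Nat.prime_two⟩
  intro C hC
  refine hC.eq_one_of_two_exp (pcore 2) EN_ne_top ?_ ?_
  · intro h
    have := h.trans index_EN
    norm_num at this
  · intro x hx
    exact Subtype.ext (E_sq (pCore_EN hx))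

theorem row_EN {p : ℕ} [hp : Fact p.Prime] (hp2 : p ≠ 2) (hi : ¬ p ∣ 8292375) : CRow p Spor.Co1 := by
  intro C hC
  refine hC.eq_one_of_index EN_ne_top (fun h => hi (h.trans index_EN)) ?_
  rw [eq_bot_iff]
  intro x hx
  have h1 := E_sq (pCore_EN hx)
  have h2 : x * x = 1 := Subtype.ext h1
  obtain ⟨k, hk⟩ := (pCore_isPGroup p (G := EN)) ⟨x, hx⟩
  have h3 : x ^ p ^ k = 1 := congrArg Subtype.val hk
  have h4 : orderOf x ∣ p ^ k := orderOf_dvd_of_pow_eq_one h3
  obtain ⟨j, -, hj⟩ := (Nat.dvd_prime_pow hp.out).1 h4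
  exact four hp.out hp2 ⟨j, hj⟩ (by rw [h2, one_mul])

/-! ### order three -/

section Three

open Cfsg.Agent.LThreeCo1.Ev Cfsg.Agent.LThreeCo1.Class Cfsg.Agent.LThreeCo1.Rel Cfsg.Agent.LThreeCo1.AGrp
open Cfsg.Agent.LThreeCo1.Heis Cfsg.Agent.LThreeCo1.SylCls
open Cfsg.Agent.CoOneType.ClosingFacts (mk_mul mk_inv exists_mk mk_eq_one mk_eq)

/-- the image in `Co1` -/
local notation "mc" => Cfsg.Agent.CoOneType.ClosingFacts.mk

/-- class two -/
theorem cube_of_comm {G : Type*} [Group G] {α n b : G} (hb : n * α * n⁻¹ = b * α) (hbα : b * α = α * b)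
    (hbn : b * n = n * b) (hα : α ^ 3 = 1) (hn : n ^ 3 = 1) (hb3 : b ^ 3 = 1) : (α * n) ^ 3 = 1 := by
  have h1 : n * α = b * α * n := by rw [← hb]; group
  have h2 : (α * n) ^ 3 = b ^ 3 * (α ^ 3 * n ^ 3) := by
    calc (α * n) ^ 3 = α * (n * α) * (n * α) * n := by
          rw [pow_succ, pow_two]; group
      _ = α * (b * α * n) * (b * α * n) * n := by rw [h1]
      _ = (α * b) * α * (n * b) * α * n * n := by group
      _ = (b * α) * α * (b * n) * α * n * n := by rw [hbα, hbn]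
      _ = b * α * (α * b) * (n * α) * n * n := by group
      _ = b * α * (b * α) * (b * α * n) * n * n := by rw [← hbα, h1]
      _ = b * (α * b) * (α * b) * α * n * n * n := by group
      _ = b * (b * α) * (b * α) * α * n * n * n := by rw [hbα]
      _ = b * b * (α * b) * α * α * n * n * n := by group
      _ = b * b * (b * α) * α * α * n * n * n := by rw [hbα]
      _ = b ^ 3 * (α ^ 3 * n ^ 3) := by rw [pow_succ, pow_two, pow_succ α, pow_two, pow_succ n, pow_two]; group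
  rw [h2, hα, hn, hb3, one_mul, one_mul]

theorem pm3 : ∀ x : T3, Cfsg.Agent.LThreeCo1.Heis.pm (Cfsg.Agent.LThreeCo1.Heis.pm x x) x = (0, 0, 0) := by
  decide +kernel

theorem nn_cube (x : T3) : NN (e 7) (e 8) (e 9) x ^ 3 = 1 := by
  rw [pow_succ, pow_two, hR.NN_mul, hR.NN_mul, pm3, NN, N_zero]

/-- the Sylow 3-subgroup of `Co1` -/
noncomputable def SS : Subgroup Spor.Co1 := (PP dat).map (QuotientGroup.mk' (center Co0))

theorem index_SS : ¬ 3 ∣ SS.index := by
  intro h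
  have h1 := Subgroup.index_map_dvd (H := PP dat) (f := QuotientGroup.mk' (center Co0)) (QuotientGroup.mk'_surjective _)
  have h2 := (PP dat).card_mul_index
  rw [card_PP dat injI, Cfsg.Agent.S0397.result] at h2
  have h3 : (PP dat).index = 422473891840000 := by omega
  rw [h3] at h1
  have h4 := h.trans h1
  norm_num at h4

theorem SS_ne_top : SS ≠ ⊤ := by
  intro h
  have h1 := card_map_dvd' (QuotientGroup.mk' (center Co0)) (PP dat)
  have h2 : (PP dat).map (QuotientGroup.mk' (center Co0)) = ⊤ := h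
  rw [h2, Subgroup.card_top, card_PP dat injI] at h1
  have h3 : Nat.card Spor.Co1 ∣ 3 ^ 9 := h1
  rw [card_co1] at h3
  exact absurd (Nat.le_of_dvd (by norm_num) h3) (by norm_num)

/-- elements of abelian normal subgroups of the Sylow 3-subgroup have order three -/
theorem cube_of_abelian {A : Subgroup Spor.Co1} (hAS : A ≤ SS) (hn : SS ≤ normalizer (A : Set Spor.Co1))
    (hc : ∀ x ∈ A, ∀ y ∈ A, x * y = y * x) {x : Spor.Co1} (hx : x ∈ A) : x ^ 3 = 1 := by
  obtain ⟨_, ⟨v, y, rfl⟩, hg⟩ := hAS hx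
  obtain ⟨α, hα⟩ : ∃ α : Spor.Co1, α = mc (Ph a v) := ⟨_, rfl⟩
  obtain ⟨n, hn'⟩ : ∃ n : Spor.Co1, n = mc (NN (e 7) (e 8) (e 9) y) := ⟨_, rfl⟩
  have hxe : x = α * n := by
    rw [hα, hn', ← mk_mul]
    exact hg.symm
  have hnS : n ∈ SS := by
    rw [hn']
    exact ⟨_, ⟨0, y, by rw [Ph_zero, one_mul]⟩, rfl⟩
  obtain ⟨w, hw⟩ := dat.norm y v
  obtain ⟨b, hb⟩ : ∃ b : Spor.Co1, b = mc (Ph a (w - v)) := ⟨_, rfl⟩
  have hbv : b * α = n * α * n⁻¹ := by
    rw [hb, hα, hn', ← mk_inv, ← mk_mul, ← mk_mul, ← mk_mul, hw, ← hA.add, sub_add_cancel]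
  have hbα : b * α = α * b := by
    rw [hb, hα, ← mk_mul, ← mk_mul, hA.ph_comm]
  -- `b = [n, x] ∈ A`
  have hbA : b ∈ A := by
    have h1 : n * x * n⁻¹ ∈ A := (mem_normalizer_iff.1 (hn hnS) x).1 hx
    have h2 : b = n * x * n⁻¹ * x⁻¹ := by
      have h3 : b = n * α * n⁻¹ * α⁻¹ := by rw [← hbv]; group
      rw [h3, hxe]
      group
    rw [h2]
    exact A.mul_mem h1 (A.inv_mem hx)
  have hbx := hc b hbA x hx
  have hbn : b * n = n * b := by
    have h1 : n = α⁻¹ * x := by rw [hxe]; group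
    have h2 : b * α⁻¹ = α⁻¹ * b := by
      have h3 : Commute b α := hbα
      exact h3.inv_right.eq
    calc b * n = b * α⁻¹ * x := by rw [h1]; group
      _ = α⁻¹ * (b * x) := by rw [h2]; group
      _ = α⁻¹ * (x * b) := by rw [hbx]
      _ = n * b := by rw [h1]; group
  rw [hxe]
  have hcube : ∀ u : Cfsg.Agent.LThreeCo1.AGrp.V, (mc (Ph a u) : Spor.Co1) ^ 3 = 1 := by
    intro u
    have h1 : mc (Ph a u ^ 3) = (1 : Spor.Co1) := by rw [hA.ph_cube]; rfl
    have h2 : (mc (Ph a u) : Spor.Co1) ^ 3 = mc (Ph a u ^ 3) := rfl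
    rw [h2, h1]
  refine cube_of_comm hbv.symm hbα hbn (by rw [hα]; exact hcube v) ?_ (by rw [hb]; exact hcube _)
  rw [hn']
  have h1 : mc (NN (e 7) (e 8) (e 9) y ^ 3) = (1 : Spor.Co1) := by rw [nn_cube]; rfl
  have h2 : (mc (NN (e 7) (e 8) (e 9) y) : Spor.Co1) ^ 3 = mc (NN (e 7) (e 8) (e 9) y ^ 3) := rfl
  rw [h2, h1]

theorem row_three : CRow 3 Spor.Co1 := by
  have hF : Fact (Nat.Prime 3) := ⟨Nat.prime_three⟩
  intro C hC c hc
  by_contra hc1
  obtain ⟨A, h1, h2, -, h3, x, hx, hx1, hxA⟩ := hC.exists_abelian (pcore 3) hc hc1 SS_ne_top index_SS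
  have hx3 : orderOf x = 3 := orderOf_eq_prime (cube_of_abelian h1 h2 h3 hxA) hx1
  obtain ⟨t, ht, hxt⟩ := Cfsg.Agent.H177.AACo1.exists_inv_three hx3
  exact hx1 (eq_one (by norm_num) hC hx ht hxt)

end Three

/-! ### order five -/

theorem row_five : CRow 5 Spor.Co1 := by
  have hF : Fact (Nat.Prime 5) := ⟨Nat.prime_five⟩
  intro C hC c hc
  by_contra hc1
  obtain ⟨k, hk⟩ := hC.pel c hc
  rcases k with _ | _ | k
  · rw [pow_zero, orderOf_eq_one_iff] at hk
    exact hc1 hk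
  · obtain ⟨t, ht, hct⟩ := Cfsg.Agent.H813.RadCo1.exists_inv_five (x := c) (by rw [hk]; norm_num)
    exact hc1 (eq_one (by norm_num) hC hc ht hct)
  · refine Cfsg.Agent.H525.RO.CoTf.co1_no (s := c ^ 5 ^ k) ?_
    rw [orderOf_pow' _ (by positivity), hk]
    have : Nat.gcd (5 ^ (k + 1 + 1)) (5 ^ k) = 5 ^ k := Nat.gcd_eq_right (pow_dvd_pow 5 (by omega))
    rw [this, show 5 ^ (k + 1 + 1) = 25 * 5 ^ k by ring]
    exact Nat.mul_div_cancel _ (by positivity)

/-! ### order seven -/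

section Seven

open Cfsg.Agent.H813.CoSevenMain Cfsg.Agent.H839.Rad

theorem row_seven : CRow 7 Spor.Co1 := by
  have hp : Nat.Prime 7 := by norm_num
  have : Fact (Nat.Prime 7) := ⟨hp⟩
  have hsim := simple
  intro C hC x hx
  -- a conjugate commutes with `pp`
  obtain ⟨x', hx', hgx, hc⟩ : ∃ x' : Spor.Co1, x' ∈ C ∧ (x' = 1 → x = 1) ∧ x' * pp = pp * x' := by
    have h1 : IsPGroup 7 ↥(zpowers x) := hC.isPGroup_zpowers hx
    have h2 : IsPGroup 7 ↥(zpowers pp) := IsPGroup.of_card (n := 1) (by rw [Nat.card_zpowers, order_pp, pow_one])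
    obtain ⟨P, hP⟩ := h1.exists_le_sylow
    obtain ⟨P', hP'⟩ := h2.exists_le_sylow
    obtain ⟨g, hg⟩ := MulAction.exists_smul_eq Spor.Co1 P P'
    have h3 : g * x * g⁻¹ ∈ (P' : Subgroup Spor.Co1) := by
      rw [← hg, Sylow.coe_subgroup_smul]
      exact smul_mem_pointwise_smul x (MulAut.conj g) _ (hP (mem_zpowers x))
    refine ⟨g * x * g⁻¹, hC.conj g x hx, fun h => by simpa using h, ?_⟩
    have h4 : Nat.card ↥(P' : Subgroup Spor.Co1) ∣ 7 ^ 2 := by
      obtain ⟨n, hn⟩ := IsPGroup.iff_card.1 P'.isPGroup'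
      have h5 : 7 ^ n ∣ Nat.card Spor.Co1 := hn ▸ card_subgroup_dvd_card _
      rw [Cfsg.Agent.S0399.result.2] at h5
      have h6 : n ≤ 2 := by
        by_contra h7
        have h8 : 7 ^ 3 ∣ 4157776806543360000 := (pow_dvd_pow 7 (by omega : 3 ≤ n)).trans h5
        revert h8
        norm_num
      rw [hn]
      exact pow_dvd_pow 7 h6
    have h5 := Cfsg.Agent.H813.CoSevenCard.comm_of_le hp h4 ⟨_, h3⟩ ⟨pp, hP' (mem_zpowers pp)⟩
    exact congrArg Subtype.val h5
  -- it centralizes `BB`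
  apply hgx
  have hBt : BB ≠ ⊤ := by
    intro h1
    have h2 := card_BB
    rw [h1, Subgroup.card_top, Cfsg.Agent.S0399.result.2] at h2
    norm_num at h2
  have hcm : ∀ m ∈ BB, MulAut.conj x' m ∈ BB := fun m hm =>
    Cfsg.Agent.H813.RadCo1.conj_mem_of_card BB_le BB_center (by rw [order_pp, card_BB]; exact card_cent_pp) hc hm
  have hrad : solvableRadical ↥BB = ⊥ := by
    refine rad_eq_bot_of_simple fun h1 => BB_not_comm ⟨⟨IsSimpleGroup.comm_iff_isSolvable.2 h1⟩⟩
  obtain ⟨t, ht⟩ := exists_prime_orderOf_dvd_card' 2 (show 2 ∣ Nat.card ↥BB by rw [card_BB]; norm_num)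
  have h2 := (rc_of_min hC hx').eq_of_rad_eq_bot hBt hcm hrad t.2
  rw [MulAut.conj_apply, mul_inv_eq_iff_eq_mul] at h2
  exact eq_one (by norm_num) hC hx' (t := t) (by rw [Subgroup.orderOf_coe, ht]) h2

end Seven

/-! ### order 13 -/

theorem row_thirteen : CRow 13 Spor.Co1 := by
  have hp : Nat.Prime 13 := by norm_num
  have : Fact (Nat.Prime 13) := ⟨hp⟩
  intro C hC c hc
  have S := Main.setup
  have hi : ¬ 13 ∣ GTwo.L.index := by
    have h := GTwo.L.card_mul_index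
    rw [GTwo.card_L, card_co1] at h
    intro h13
    omega
  obtain ⟨g, hg⟩ := hC.exists_conj_mem hi hc
  have h1 := eq_one (by norm_num) hC (hC.conj g c hc) (t := TwoB.w)
    (orderOf_eq_prime (by rw [pow_two]; exact S.ww) S.w1) (S.Lw _ hg)
  simpa using h1

/-- **All rows of `Co1`.** -/
theorem row (p : ℕ) [hp : Fact p.Prime] : CRow p Spor.Co1 := by
  by_cases hd : p ∣ Nat.card Spor.Co1
  · have h1 : p ∣ 2 ^ 21 * (3 ^ 9 * (5 ^ 4 * (7 ^ 2 * (11 * (13 * 23))))) := by
      rw [card_co1] at hd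
      exact hd
    have key : ∀ {q : ℕ}, q.Prime → p ∣ q → p = q := fun hq h => (Nat.prime_dvd_prime_iff_eq hp.out hq).1 h
    rcases (Nat.Prime.dvd_mul hp.out).1 h1 with h2 | h2
    · obtain rfl := key Nat.prime_two (hp.out.dvd_of_dvd_pow h2)
      exact row_two
    rcases (Nat.Prime.dvd_mul hp.out).1 h2 with h3 | h3
    · obtain rfl := key Nat.prime_three (hp.out.dvd_of_dvd_pow h3)
      exact row_three
    rcases (Nat.Prime.dvd_mul hp.out).1 h3 with h4 | h4
    · obtain rfl := key (by norm_num) (hp.out.dvd_of_dvd_pow h4)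
      exact row_five
    rcases (Nat.Prime.dvd_mul hp.out).1 h4 with h5 | h5
    · obtain rfl := key (by norm_num) (hp.out.dvd_of_dvd_pow h5)
      exact row_seven
    rcases (Nat.Prime.dvd_mul hp.out).1 h5 with h6 | h6
    · obtain rfl := key (by norm_num) h6
      exact row_EN (by norm_num) (by norm_num)
    rcases (Nat.Prime.dvd_mul hp.out).1 h6 with h7 | h7
    · obtain rfl := key (by norm_num) h7
      exact row_thirteen
    · obtain rfl := key (by norm_num) h7
      exact row_EN (by norm_num) (by norm_num)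
  · exact crow_of_not_dvd hd

end Cfsg.Agent.H341.CC.Co1Row

namespace Cfsg.Agent.H341.CC

open Cfsg Cfsg.Agent.H162.CCR

/-- **The row of `Co1`.** -/
theorem crow_co1 {G : Type*} [Group G] (h : Spor.IsoCo1 G) (p : ℕ) [Fact p.Prime] : CRow p G := by
  have e : G ≃* Spor.Co1 := h.some
  exact CRow.of_equiv e (Co1Row.row p)

end Cfsg.Agent.H341.CC
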