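import Cfsg.Agent.H341.CC.Rc
import Cfsg.Agent.H813.RadCo1

/-!
# S3828, row of `Co1`, part 1 (helper341)

`eq_one_of_inv` : a radical `p`-element (`p` odd) of `Co1` commuting with an involution is trivial (as helper813's
`false_of_inv`, but for elements of any order `p ^ k`).
-/

set_option autoImplicit false
set_option maxRecDepth 20000

namespace Cfsg.Agent.H341.CC.CoInv

open Subgroup Cfsg Cfsg.Agent.H459.Rad Cfsg.Agent.H459.Iface Cfsg.Agent.H839.Rad
open Cfsg.Agent.H813.RadCo1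
open Cfsg.Agent.SporadicA.Co0Mono
open Cfsg.Agent.SporadicA.Co1Simple (allOne exists_sign_perm mem_N_iff)
open Cfsg.Agent.SporadicA.GolayBase Cfsg.Agent.SporadicA.GolayPerm
open Cfsg.Agent.CoOneType.SignFacts (wt wt_add_allOne sign_allOne_comm)
open Cfsg.Agent.CoOneType.ClosingFacts (mk mk_mul mk_inv exists_mk mk_eq_one mk_eq)
open Cfsg.Agent.KFacts.Co1D4
open Cfsg.Agent.CTwoTab.Co1 (E Rep exists_rep conj_sign sign_mem)

/-- a 2-element and a `p`-element -/
theorem four {G : Type*} [Group G] {p : ℕ} {x : G} (hp : p.Prime) (hp2 : p ≠ 2) (hx : ∃ k, orderOf x = p ^ k)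
    (h : (x * x) * (x * x) = 1) : x = 1 := by
  have h1 : x ^ 4 = 1 := by
    rw [show (4 : ℕ) = 2 + 2 from rfl, pow_add, pow_two]; exact h
  obtain ⟨k, hk⟩ := hx
  have h2 : p ^ k ∣ 2 ^ 2 := hk ▸ orderOf_dvd_of_pow_eq_one h1
  rcases Nat.eq_zero_or_pos k with rfl | hk0
  · rwa [pow_zero, orderOf_eq_one_iff] at hk
  · exfalso
    have h3 : p ∣ 2 ^ 2 := (dvd_pow_self p hk0.ne').trans h2
    exact hp2 ((Nat.prime_dvd_prime_iff_eq hp Nat.prime_two).1 (hp.dvd_of_dvd_pow h3))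

variable {p : ℕ} {x : Spor.Co1}

theorem octad (hp : p.Prime) (hp2 : p ≠ 2) (hx : ∃ k, orderOf x = p ^ k) (h : RC (MulAut.conj x)) {o : golayCode}
    (ho : wt o = 8) (hxs : x * mk (signCo0 o) = mk (signCo0 o) * x) : x = 1 := by
  have hL := KFacts.Co1.InCo1.large ho
  obtain ⟨M, hM⟩ : ∃ M, M = centralizer ({mk (signCo0 o)} : Set Spor.Co1) := ⟨_, rfl⟩
  have hMt : M ≠ ⊤ := hM ▸ ne_top_of_mem hL.z_ne
  have hxM : x ∈ M := hM ▸ mem_centralizer_singleton_iff.2 hxs
  have hxr : x ∈ radIn M := by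
    have h1 := mem_rad h hMt hxM
    exact mem_radIn_coe.2 h1
  have hRM : KFacts.Co1.InCo1.RCo1 o ≤ M := fun r hr => hM ▸ mem_centralizer_singleton_iff.2 (hL.comm_z r hr)
  have hRc : ∀ g ∈ M, ∀ n ∈ KFacts.Co1.InCo1.RCo1 o, g * n * g⁻¹ ∈ KFacts.Co1.InCo1.RCo1 o := by
    intro g hg n hn
    rw [hM] at hg
    exact hL.conj_mem g (mem_centralizer_singleton_iff.1 hg) n hn
  have hsol : Group.IsSolvable ↥(KFacts.Co1.InCo1.RCo1 o) := by
    have : Fact (Nat.Prime 2) := ⟨Nat.prime_two⟩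
    have h2 := CTwoTab.Co1.isPGroup_large hL
    have := h2.isNilpotent
    infer_instance
  have hle : KFacts.Co1.InCo1.RCo1 o ≤ radIn M := le_radIn hRM hRc hsol
  rcases KFacts.Co1.CaseM.normal ho (radIn M) (hM ▸ radIn_le M) hle (by
    intro g hg n hn
    exact radIn_conj_mem (hM ▸ hg) hn) with h1 | h1
  · rw [h1] at hxr
    rcases hL.sq x hxr with h2 | h2
    · exact four hp hp2 hx (by rw [h2, one_mul])
    · exact four hp hp2 hx (by rw [h2]; exact hL.z_sq)
  · have hs : Group.IsSolvable M := by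
      rw [hM, ← h1]
      exact radIn_solvable M
    have hc : commutator ↥M = ⊤ := by rw [hM]; exact KFacts.Co1.InCo1.commutator_eq_top ho
    have h3 : Subsingleton ↥M := by
      by_contra hns
      rw [not_subsingleton_iff_nontrivial] at hns
      exact (Group.IsSolvable.commutator_lt_top_of_nontrivial ↥M).ne hc
    have h4 : (⟨x, hxM⟩ : M) = 1 := Subsingleton.elim _ _
    exact congrArg Subtype.val h4

theorem E_ne_bot_of {d : golayCode} (hd : wt d = 12) : E ≠ ⊥ := by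
  intro hE
  have h1 : mk (signCo0 d) ∈ E := sign_mem d
  rw [hE, mem_bot] at h1
  have h2 : mk (signCo0 d) = mk (signCo0 0) := by rw [h1, signCo0_zero]; rfl
  have h4 : wt 0 = 0 := by unfold wt; rw [Cfsg.Agent.CoOneType.CoOneE.sup_zero, Finset.card_empty]
  rcases DodBal.mk_sign_eq h2 with h3 | h3
  · rw [h3, h4] at hd
    omega
  · have h5 := wt_add_allOne 0
    rw [← h3, h4] at h5
    omega

/-- `Rad(2^11:M24) = 2^11` -/
theorem radIn_EN : radIn EN ≤ E := by
  intro x hxr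
  obtain ⟨a, σ, rfl⟩ := mem_EN.1 (radIn_le EN hxr)
  have hsol : Group.IsSolvable ↥E := by
    have : Fact (Nat.Prime 2) := ⟨Nat.prime_two⟩
    have := isPGroup_E.isNilpotent
    infer_instance
  have hle : E ≤ radIn EN := le_radIn E_le (fun g hg n hn => E_conj hg hn) hsol
  have hσ : pm σ ∈ radIn EN := by
    have h1 : mk (signCo0 a) * pm σ ∈ radIn EN := by rw [pm_apply, ← mk_mul]; exact hxr
    exact (mul_mem_cancel_left (hle (sign_mem a))).1 h1
  have hs : IsSimpleGroup M24 := Cfsg.Agent.S0365.result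
  have hn : ((radIn EN).comap pm).Normal := ⟨fun τ hτ ρ => by
    show pm (ρ * τ * ρ⁻¹) ∈ radIn EN
    rw [map_mul, map_mul, map_inv]
    exact radIn_conj_mem (mem_EN.2 ⟨0, ρ, by rw [signCo0_zero, one_mul]; rfl⟩) hτ⟩
  rcases hn.eq_bot_or_eq_top with h1 | h1
  · have h2 : σ ∈ (radIn EN).comap pm := hσ
    rw [h1, mem_bot] at h2
    subst h2
    rw [map_one, mul_one]
    exact sign_mem a
  · exfalso
    apply not_solvable_M24
    have hr := radIn_solvable EN
    refine Group.isSolvable_of_isSolvable_injective (f := pm.codRestrict (radIn EN) fun τ => ?_) ?_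
    · have : τ ∈ (radIn EN).comap pm := by rw [h1]; exact mem_top τ
      exact this
    · intro a b hab
      exact pm_inj (congrArg Subtype.val hab)

theorem dodecad (hp : p.Prime) (hp2 : p ≠ 2) (hx : ∃ k, orderOf x = p ^ k) (h : RC (MulAut.conj x)) {d : golayCode}
    (hd : wt d = 12) (hxs : x * mk (signCo0 d) = mk (signCo0 d) * x) : x = 1 := by
  have hM := EN_ne (E_ne_bot_of hd)
  have hxM : x ∈ EN := by
    obtain ⟨g, rfl⟩ := exists_mk x
    obtain ⟨a, σ, rfl⟩ := exists_sign_perm (DodBal.mem_N hd hxs)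
    exact mem_EN.2 ⟨a, σ, rfl⟩
  have hxr : x ∈ radIn EN := mem_radIn_coe.2 (mem_rad h hM hxM)
  exact four hp hp2 hx (by rw [E_sq (radIn_EN hxr), one_mul])

theorem twoB (hp : p.Prime) (hp2 : p ≠ 2) (hx : ∃ k, orderOf x = p ^ k) (h : RC (MulAut.conj x))
    (hxs : x * TwoB.w = TwoB.w * x) : x = 1 := by
  have S := Main.setup
  have hLt : GTwo.L ≠ ⊤ := by
    intro h1
    have h2 := GTwo.card_L
    rw [h1, Subgroup.card_top, Cfsg.Agent.S0399.result.2] at h2
    norm_num at h2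
  have h1 : ∀ l ∈ GTwo.L, x * l = l * x := by
    intro l hl
    have h2 := h.eq_of_quasisimple hLt (fun m hm => S.conj_L hxs hm) CTwoTab.Co1.quasisimple_L hl
    rw [MulAut.conj_apply, mul_inv_eq_iff_eq_mul] at h2
    exact h2
  have h2 : x * x = 1 := by
    rcases S.cent x hxs h1 with h3 | h3 | h3 | h3
    · rw [h3, one_mul]
    · rw [h3]; exact S.ww
    · rw [h3]; exact S.vv
    · rw [h3, mul_assoc, ← mul_assoc TwoB.v, ← S.comm, mul_assoc, S.vv, mul_one, S.ww]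
  exact four hp hp2 hx (by rw [h2, one_mul])

/-- **A radical `p`-element, `p` odd, commuting with an involution is trivial.** -/
theorem eq_one_of_inv (hp : p.Prime) (hp2 : p ≠ 2) (hx : ∃ k, orderOf x = p ^ k) (h : RC (MulAut.conj x)) {t : Spor.Co1}
    (ht : orderOf t = 2) (hxt : x * t = t * x) : x = 1 := by
  obtain ⟨g, s, hs, rfl⟩ := exists_rep t ht
  have h1 : ∃ k, orderOf (g⁻¹ * x * g⁻¹⁻¹) = p ^ k := by
    obtain ⟨k, hk⟩ := hx
    exact ⟨k, by rw [← MulAut.conj_apply, MulEquiv.orderOf_eq, hk]⟩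
  have h2 := rc_conj h g⁻¹
  have h3 : (g⁻¹ * x * g⁻¹⁻¹) * s = s * (g⁻¹ * x * g⁻¹⁻¹) := by
    calc (g⁻¹ * x * g⁻¹⁻¹) * s = g⁻¹ * (x * (g * s * g⁻¹)) * g := by group
      _ = g⁻¹ * ((g * s * g⁻¹) * x) * g := by rw [hxt]
      _ = s * (g⁻¹ * x * g⁻¹⁻¹) := by group
  have h4 : g⁻¹ * x * g⁻¹⁻¹ = 1 := by
    rcases hs with ⟨o, ho, rfl⟩ | ⟨d, hd, rfl⟩ | rfl
    · exact octad hp hp2 h1 h2 ho h3
    · exact dodecad hp hp2 h1 h2 hd h3
    · exact twoB hp hp2 h1 h2 h3
  have h5 : x = g * (g⁻¹ * x * g⁻¹⁻¹) * g⁻¹ := by group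
  rw [h5, h4]
  group

end Cfsg.Agent.H341.CC.CoInv
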