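import Cfsg.Agent.H162.CC.Tools3
import Cfsg.Agent.H865.CC.Base
import Cfsg.Agent.H459.Rad

/-!
# S3828 rows: the bridge to radical elements (`RC`)

* `Min.rc` : in a simple group every `c ∈ C` is a radical element: `RC (MulAut.conj c)`.  So all facts of the rows of S3829
  (`false_of_inv`, ...) about radical elements of order `p` apply to the elements of order `p` of `C`.
* `false_of_rc` : a subgroup `H ≠ ⊤` containing `c` with trivial radical.
-/

set_option autoImplicit false

namespace Cfsg.Agent.H341.CC

open Subgroup Cfsg Cfsg.Agent.H162.CCR Cfsg.Agent.Lib.Cores Cfsg.Agent.H459.Rad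

variable {G : Type*} [Group G] {p : ℕ} {C : Set G}

/-- **The bridge.** -/
theorem rc_of_min [Finite G] [hp : Fact p.Prime] [hs : IsSimpleGroup G] (h : Min p C) {c : G} (hc : c ∈ C) :
    RC (MulAut.conj c) := by
  intro M hM hinv m hm
  have hcM : c ∈ normalizer (M : Set G) := by
    have h1 : M.map (MulAut.conj c).toMonoidHom ≤ M := by
      rintro _ ⟨x, hx, rfl⟩
      exact hinv x hx
    have h2 : M.map (MulAut.conj c).toMonoidHom = M := by
      apply Subgroup.eq_of_le_of_card_ge h1
      rw [Subgroup.card_map_of_injective (MulAut.conj c).injective]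
    rw [mem_normalizer_iff]
    intro x
    constructor
    · intro hx
      exact hinv x hx
    · intro hx
      have h3 : c * x * c⁻¹ ∈ M.map (MulAut.conj c).toMonoidHom := by
        rw [h2]
        exact hx
      obtain ⟨y, hy, hyx⟩ := h3
      have h4 : c * y * c⁻¹ = c * x * c⁻¹ := hyx
      have h5 : y = x := by simpa using h4
      exact h5 ▸ hy
  by_cases hN : normalizer (M : Set G) = ⊤
  · have h1 : M.Normal := normalizer_eq_top_iff.1 hN
    rcases hs.eq_bot_or_eq_top_of_normal M h1 with h2 | h2
    · have h3 : m = 1 := by rw [h2] at hm; simpa using hm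
      rw [h3, map_one, inv_one, mul_one]
      exact one_mem _
    · exact absurd h2 hM
  · set H := normalizer (M : Set G) with hH
    set P : Subgroup G := (pCore p H).map H.subtype with hP
    have hcP : c ∈ P := h.mem_map_pCore hN hc hcM
    have hMH : M ≤ H := le_normalizer
    have hPn : ∀ g ∈ H, ∀ x ∈ P, g * x * g⁻¹ ∈ P := by
      rintro g hg _ ⟨x, hx, rfl⟩
      refine ⟨⟨g, hg⟩ * x * ⟨g, hg⟩⁻¹, ?_, rfl⟩
      exact (inferInstance : (pCore p H).Normal).conj_mem x hx ⟨g, hg⟩
    have hPp : IsPGroup p P := (pCore_isPGroup p).map _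
    have hNs : Group.IsSolvable (P ⊓ M : Subgroup G) := by
      have h1 : IsPGroup p (P ⊓ M : Subgroup G) := hPp.to_le inf_le_left
      have h2 : Group.IsNilpotent (P ⊓ M : Subgroup G) := h1.isNilpotent
      infer_instance
    have h1 : P ⊓ M ≤ radIn M := by
      refine le_radIn inf_le_right ?_ hNs
      intro g hg n hn
      exact ⟨hPn g (hMH hg) n hn.1, M.mul_mem (M.mul_mem hg hn.2) (M.inv_mem hg)⟩
    apply h1
    refine ⟨?_, M.mul_mem (M.inv_mem hm) (hinv m hm)⟩
    have e : m⁻¹ * MulAut.conj c m = (m⁻¹ * c * m⁻¹⁻¹) * c⁻¹ := by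
      rw [MulAut.conj_apply]
      group
    rw [e]
    exact P.mul_mem (hPn _ (hMH (M.inv_mem hm)) _ hcP) (P.inv_mem hcP)

/-- elements of `C` of prime order: a power of a non-trivial element is of order `p`, but it need not lie in `C`;
here the order itself is `p` as soon as `c ^ p = 1`. -/
theorem orderOf_of_pow_eq_one [hp : Fact p.Prime] {c : G} (hc : c ^ p = 1) (hc1 : c ≠ 1) : orderOf c = p :=
  orderOf_eq_prime hc hc1

end Cfsg.Agent.H341.CC
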